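import Cfsg.Agent.J1.Main

/-! An involution whose weak closure in its centralizer is `Z₂ × A₅`: local analysis. -/

set_option autoImplicit false
set_option linter.unusedSectionVars false

namespace J1

open JK Subgroup
open scoped commutatorElement

theorem K_center : ∀ k : KK5, k * ka = ka * k → k * kr = kr * k → k = 1 ∨ k = tau := by
  decide +kernel

theorem K_inv : ∀ k : KK5, k * k = 1 → k ≠ 1 → k ≠ tau →
    ∃ y, y * (k.1, v5) * y⁻¹ = k := by decide +kernel

theorem K_c16 : (Finset.univ.filter fun k : KK5 => k = tau ∨ k * k = 1 ∧ k ≠ 1 ∧ k.1 = 1).card = 16 ∧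
    (Finset.univ.filter fun k : KK5 => k * k = 1 ∧ k.1 = o2).card = 16 ∧
    (Finset.univ.filter fun k : KK5 => k * k = 1 ∧ k ≠ 1).card = 31 := by decide +kernel

set_option synthInstance.maxSize 1000 in
theorem K_aut : ∀ r : KK5, r ^ 3 = 1 → r * ka * r⁻¹ = kb → ∀ u : KK5, u * u = 1 → u.1 = 1 →
    (r * u) ^ 2 = 1 → (ka * u) ^ 3 = 1 → ∃ n, ph n * kr * (ph n)⁻¹ = r ∧ ph n * ku * (ph n)⁻¹ = u := by
  decide +kernel

theorem fst_eq {ψ : KK5 →* KK5} (h : ψ tau = tau) (k : KK5) : (ψ k).1 = k.1 := by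
  have c : ∀ x : KK5, x ^ 3 = 1 → (ψ x).1 = 1 := fun x hx =>
    (show ∀ e : Multiplicative (ZMod 2), e ^ 3 = 1 → e = 1 by decide) _
      (by rw [← Prod.pow_fst, ← map_pow, hx, map_one, Prod.fst_one])
  have a := c kr (by decide)
  have b : (ψ ka).1 = 1 := by
    have := c (kr * ka) (by decide)
    rwa [map_mul, Prod.fst_mul, a, one_mul] at this
  have d : (ψ ku).1 = 1 := by
    have := c (ka * ku) (by decide)
    rwa [map_mul, Prod.fst_mul, b, one_mul] at this
  have := K_gen (((MonoidHom.fst _ _).comp ψ).eqLocus (MonoidHom.fst _ _))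
    (congrArg Prod.fst h) b a d
  exact (this ▸ mem_top k : k ∈ ((MonoidHom.fst _ _).comp ψ).eqLocus (MonoidHom.fst _ _))

/-- parity of a class -/
theorem card_class_mod {H : Type*} [Group H] [Finite H] {t : H} (ht : t * t = 1) :
    (centralizer ({t} : Set H)).index ≡ Nat.card {d // IsConj t d ∧ d * t = t * d} [MOD 2] := by
  classical
  have := Fintype.ofFinite H
  have e := H8.card_centralizer_mul_card_conj t
  rw [← (centralizer ({t} : Set H)).card_mul_index] at e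
  rw [← Nat.eq_of_mul_eq_mul_left Nat.card_pos e]
  let f : Function.End {d // IsConj t d} := fun d =>
    ⟨t * d * t⁻¹, d.2.trans (isConj_iff.mpr ⟨t, rfl⟩)⟩
  have := Equiv.Perm.card_fixedPoints_modEq (f := f) (p := 2) (n := 1) (funext fun d => Subtype.ext (by
    show t * (t * d * t⁻¹) * t⁻¹ = d
    rw [show t * (t * d * t⁻¹) * t⁻¹ = (t * t) * d * (t * t)⁻¹ by group, ht]; simp))
  rw [← Nat.card_eq_fintype_card, ← Nat.card_eq_fintype_card] at this
  refine this.trans (congrArg (· % 2) (Nat.card_eq_of_bijective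
    (fun d => ⟨d.1.1, d.1.2, (mul_inv_eq_iff_eq_mul.mp (congrArg Subtype.val d.2)).symm⟩)
    ⟨fun a b e => Subtype.ext (Subtype.ext (congrArg (fun z => z.1) e :)), fun d =>
      ⟨⟨⟨d.1, d.2.1⟩, Subtype.ext (mul_inv_eq_iff_eq_mul.mpr d.2.2.symm)⟩, rfl⟩⟩))

/-- a central element of an abelian Sylow subgroup of a perfect group -/
theorem central_eq_one {H : Type*} [Group H] [Finite H] (hH : _root_.commutator H = ⊤) {p : ℕ}
    [Fact p.Prime] (P : Sylow p H) (ab : IsMulCommutative (P : Subgroup H)) {z : H}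
    (hz : z ∈ (P : Subgroup H)) (hc : ∀ g, g * z = z * g) : z = 1 := by
  let _ : CommGroup (P : Subgroup H) := { (inferInstance : Group (P : Subgroup H)) with mul_comm := ab.1.1 }
  have a := MonoidHom.transfer_eq_pow (MonoidHom.id (P : Subgroup H)) z fun k g _ => by
    rw [mul_assoc, ← (Commute.pow_right (hc g) k).eq, inv_mul_cancel_left]
  have b : MonoidHom.transfer (MonoidHom.id (P : Subgroup H)) z = 1 :=
    Abelianization.commutator_subset_ker _ (hH ▸ mem_top z)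
  have c : z ^ (P : Subgroup H).index = 1 := congrArg Subtype.val (a.symm.trans b)
  obtain ⟨k, hk⟩ := P.2 ⟨z, hz⟩
  have d := pow_gcd_eq_one.mpr ⟨c, (congrArg Subtype.val hk : z ^ p ^ k = 1)⟩
  rwa [Nat.Coprime.pow_right k ((Nat.Prime.coprime_iff_not_dvd Fact.out).mpr
    P.not_dvd_index).symm, pow_one] at d

variable {G : Type*} [Group G] [Fintype G] {t : G} {Φ : KK5 →* G}

/-- the weak closure of `t` in its centralizer is the image of `Φ` -/
structure WC (t : G) (Φ : KK5 →* G) : Prop where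
  inj : Function.Injective Φ
  tau : Φ tau = t
  mem : ∀ d, IsConj t d → d * t = t * d → ∃ k, Φ k = d
  gen : ∀ H : Subgroup G, (∀ d, IsConj t d → d * t = t * d → d ∈ H) → ∀ k, Φ k ∈ H
  odd : Odd (centralizer ({t} : Set G)).index

theorem sq_of_conj {H : Type*} [Group H] {t d : H} (ht : t * t = 1) (h : IsConj t d) : d * d = 1 := by
  obtain ⟨c, rfl⟩ := isConj_iff.mp h
  rw [show c * t * c⁻¹ * (c * t * c⁻¹) = c * (t * t) * c⁻¹ by group, ht]; simp

namespace WC

variable (h : WC t Φ)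
include h

theorem t2 : t * t = 1 := by rw [← h.tau, ← map_mul, show JK.tau * JK.tau = 1 by decide, map_one]
theorem ne {a b : KK5} (e : a ≠ b) : Φ a ≠ Φ b := fun c => e (h.inj c)
theorem ne1 {a : KK5} (e : a ≠ 1) : Φ a ≠ 1 := fun c => e ((map_eq_one_iff Φ h.inj).mp c)
theorem t1 : t ≠ 1 := h.tau ▸ h.ne1 (by decide)
theorem comm (k : KK5) : Φ k * t = t * Φ k := by
  rw [← h.tau, ← map_mul, ← map_mul, mem_center_iff.mp tau_central k]

theorem all {k : KK5} (k2 : k * k = 1) (k1 : k ≠ 1) : IsConj t (Φ k) := by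
  classical
  have cl : ∀ k : KK5, k * k = 1 → k ≠ 1 → k ≠ JK.tau → IsConj (Φ (k.1, v5)) (Φ k) := fun k a b c => by
    obtain ⟨y, hy⟩ := K_inv k a b c
    exact isConj_iff.mpr ⟨Φ y, by rw [← map_inv, ← map_mul, ← map_mul, hy]⟩
  have par : ∀ q : KK5 → Prop, ∀ [DecidablePred q], (∀ k, IsConj t (Φ k) ↔ q k) →
      (Finset.univ.filter q).card ≠ 16 := fun q _ hq e => by
    have a := card_class_mod h.t2
    rw [← Nat.card_eq_of_bijective (fun k : {k // q k} =>
      (⟨Φ k, (hq k).mpr k.2, h.comm k⟩ : {d // IsConj t d ∧ d * t = t * d}))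
      ⟨fun a b e => Subtype.ext (h.inj (congrArg Subtype.val e)), fun d => by
        obtain ⟨k, hk⟩ := h.mem d d.2.1 d.2.2
        exact ⟨⟨k, (hq k).mp (hk ▸ d.2.1)⟩, Subtype.ext hk⟩⟩,
      Nat.card_eq_fintype_card, Fintype.card_subtype, e] at a
    have := Nat.odd_iff.mp h.odd
    unfold Nat.ModEq at a
    omega
  have iv : ∀ k, IsConj t (Φ k) → k * k = 1 ∧ k ≠ 1 := fun k hk =>
    ⟨h.inj (by rw [map_mul, sq_of_conj h.t2 hk, map_one]), by
      rintro rfl
      exact h.t1 (isConj_one_left.mp (map_one Φ ▸ hk))⟩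
  have tt : IsConj t (Φ JK.tau) := h.tau.symm ▸ IsConj.refl t
  have key : IsConj t (Φ (1, v5)) ∧ IsConj t (Φ (o2, v5)) := by
    by_cases a : IsConj t (Φ (1, v5)) <;> by_cases b : IsConj t (Φ (o2, v5))
    · exact ⟨a, b⟩
    · refine absurd K_c16.1 (par _ fun k => ⟨fun hk => ?_, ?_⟩)
      · by_contra c
        rw [not_or] at c
        obtain ⟨i2, i1⟩ := iv k hk
        rcases o2_cases k.1 with e | e
        · exact c.2 ⟨i2, i1, e⟩
        · exact b (e ▸ hk.trans (cl k i2 i1 c.1).symm)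
      · rintro (rfl | ⟨i2, i1, e⟩)
        · exact tt
        · exact a.trans (e ▸ cl k i2 i1 (by rintro rfl; exact o2_ne e))
    · refine absurd K_c16.2.1 (par _ fun k => ⟨fun hk => ?_, ?_⟩)
      · obtain ⟨i2, i1⟩ := iv k hk
        rcases o2_cases k.1 with e | e
        · exact absurd (e ▸ hk.trans (cl k i2 i1 (by rintro rfl; exact o2_ne e)).symm) a
        · exact ⟨i2, e⟩
      · rintro ⟨i2, e⟩
        by_cases c : k = JK.tau
        · exact c ▸ tt
        · exact b.trans (e ▸ cl k i2 (by rintro rfl; exact o2_ne e.symm) c)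
    · exfalso
      have := h.gen (centralizer {Φ ku} ⊓ centralizer {Φ ka}) (fun d d1 d2 => by
        obtain ⟨k, rfl⟩ := h.mem d d1 d2
        obtain ⟨i2, i1⟩ := iv k d1
        by_cases c : k = JK.tau
        · rw [c, h.tau]
          exact ⟨mem_centralizer_singleton_iff.mpr (h.comm _).symm,
            mem_centralizer_singleton_iff.mpr (h.comm _).symm⟩
        · have := d1.trans (cl k i2 i1 c).symm
          rcases o2_cases k.1 with e | e <;> rw [e] at this
          · exact absurd this a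
          · exact absurd this b) ku
      have := mem_centralizer_singleton_iff.mp this.2
      rw [← map_mul, ← map_mul] at this
      exact h.ne (by decide) this
  by_cases c : k = JK.tau
  · exact c ▸ tt
  · rcases o2_cases k.1 with e | e
    · exact key.1.trans (e ▸ cl k k2 k1 c)
    · exact key.2.trans (e ▸ cl k k2 k1 c)

/-- commuting products -/
theorem cp {x y : G} (hx : IsConj t x) (hy : IsConj t y) (e : y * x = x * y) (ne : x ≠ y) :
    IsConj t (x * y) := by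
  obtain ⟨c, rfl⟩ := isConj_iff.mp hx
  obtain ⟨k, hk⟩ := h.mem (c⁻¹ * y * c) (hy.trans (isConj_iff.mpr ⟨c⁻¹, by group⟩)) (by
    rw [show c⁻¹ * y * c * t = c⁻¹ * (y * (c * t * c⁻¹)) * c by group, e]; group)
  have y2 := sq_of_conj h.t2 hy
  have k2 : k * k = 1 := h.inj (by
    rw [map_mul, hk, show c⁻¹ * y * c * (c⁻¹ * y * c) = c⁻¹ * (y * y) * c by group, y2]; simp)
  refine (h.all (k := JK.tau * k) ?_ fun e => ne ?_).trans
    (isConj_iff.mpr ⟨c, by rw [map_mul, h.tau, hk]; group⟩)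
  · rw [mul_assoc, ← mul_assoc k, mem_center_iff.mp tau_central k, mul_assoc, k2]; decide
  · have : k = JK.tau := by rw [← inv_eq_of_mul_eq_one_right e]; decide
    rw [← h.tau, ← this, hk]; group

theorem exists_psi {n : G} (hn : n * t = t * n) : ∃ ψ : KK5 →* KK5,
    (∀ k, Φ (ψ k) = n * Φ k * n⁻¹) ∧ ψ JK.tau = JK.tau := by
  have := h.gen (Φ.range.comap (MulAut.conj n).toMonoidHom) fun d d1 d2 =>
    h.mem _ (d1.trans (isConj_iff.mpr ⟨n, rfl⟩)) (by
      show n * d * n⁻¹ * t = t * (n * d * n⁻¹)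
      rw [mul_assoc, (Commute.inv_left hn).eq, show n * d * (t * n⁻¹) = n * (d * t) * n⁻¹ by group, d2,
        ← mul_assoc, hn]
      group)
  choose f hf using this
  have hf : ∀ k, Φ (f k) = n * Φ k * n⁻¹ := hf
  exact ⟨MonoidHom.mk' f fun a b => h.inj (by rw [map_mul, hf, hf, hf, map_mul]; group), hf,
    h.inj (by rw [MonoidHom.mk'_apply, hf, h.tau, hn]; group)⟩

theorem card_T : Nat.card (TT Φ) = 8 := by rw [card_map_of_injective h.inj, card_V8]

theorem ph_conj {n : Fin 8} (hn : n ≠ 0) : IsConj t (Φ (ph n)) :=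
  h.all (ph_sq n) fun e => hn (ph_inj n 0 e)

theorem phc (m n : Fin 8) : Φ (ph m) * Φ (ph n) = Φ (ph n) * Φ (ph m) := by
  rw [← map_mul, ← map_mul, ← ph_mul, ← ph_mul, Fin.xor_comm]

/-- the normalizer of the Sylow subgroup is transitive -/
theorem exists_norm {n : Fin 8} (hn : n ≠ 0) :
    ∃ m ∈ normalizer (TT Φ : Set G), m * t * m⁻¹ = Φ (ph n) := by
  obtain ⟨g, hg⟩ := isConj_iff.mp (h.ph_conj hn)
  have a : ∀ i, ∃ k, Φ k = g⁻¹ * Φ (ph i) * g := fun i => by
    by_cases e : i = 0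
    · exact ⟨1, by rw [e, show ph 0 = 1 from rfl]; simp⟩
    · refine h.mem _ ((h.ph_conj e).trans (isConj_iff.mpr ⟨g⁻¹, by group⟩)) ?_
      rw [show g⁻¹ * Φ (ph i) * g * t = g⁻¹ * (Φ (ph i) * (g * t * g⁻¹)) * g by group, hg, h.phc, ← hg]
      group
  choose f hf using a
  obtain ⟨i, i0, i1⟩ : ∃ i : Fin 8, i ≠ 0 ∧ i ≠ n :=
    (show ∀ n : Fin 8, ∃ i : Fin 8, i ≠ 0 ∧ i ≠ n by decide) n
  obtain ⟨y, hy⟩ := K_inv (f i) (h.inj (by
      rw [map_mul, hf, show g⁻¹ * Φ (ph i) * g * (g⁻¹ * Φ (ph i) * g) =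
        g⁻¹ * (Φ (ph i) * Φ (ph i)) * g by group, ← map_mul, ph_sq]; simp))
    (fun e => i0 (ph_inj _ 0 (h.inj (by
      rw [show Φ (ph i) = g * (g⁻¹ * Φ (ph i) * g) * g⁻¹ by group, ← hf, e, show ph 0 = 1 from rfl]
      simp))))
    fun e => i1 (ph_inj _ _ (h.inj (by
      rw [show Φ (ph i) = g * (g⁻¹ * Φ (ph i) * g) * g⁻¹ by group, ← hf, e, h.tau, hg])))
  refine ⟨g * Φ y, inv_mem_iff.mp (mem_normalizer_fintype fun x hx => ?_), by
    rw [show g * Φ y * t * (g * Φ y)⁻¹ = g * (Φ y * t) * (Φ y)⁻¹ * g⁻¹ by group, h.comm, ← hg]; group⟩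
  obtain ⟨j, rfl⟩ := mem_TT.mp hx
  refine ⟨y⁻¹ * f j * y, mem_centralizer_singleton_iff.mpr ?_, by
    rw [map_mul, map_mul, hf, map_inv]; group⟩
  have c : f j * f i = f i * f j := h.inj (by
    rw [map_mul, map_mul, hf, hf, show ∀ a b : G, g⁻¹ * a * g * (g⁻¹ * b * g) = g⁻¹ * (a * b) * g from
      fun a b => by group, h.phc]; group)
  rw [← hy] at c
  have d : y⁻¹ * f j * y * ((f i).1, v5) = ((f i).1, v5) * (y⁻¹ * f j * y) := by
    rw [show y⁻¹ * f j * y * ((f i).1, v5) = y⁻¹ * (f j * (y * ((f i).1, v5) * y⁻¹)) * y by group, c]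
    group
  exact Prod.ext (by simp [mul_comm]) (congrArg Prod.snd d :)

theorem act {m : G} (hm : m ∈ normalizer (TT Φ : Set G)) : ∃ p q s : Fin 8,
    ∀ n, Φ (ph (lin p q s n)) = m * Φ (ph n) * m⁻¹ := by
  choose F hF using fun n => mem_TT.mp ((mem_normalizer_iff.mp hm _).mp (mem_TT.mpr ⟨n, rfl⟩))
  have inj : ∀ m n, Φ (ph m) = Φ (ph n) → m = n := fun m n e => ph_inj m n (h.inj e)
  have e0 := eq_lin (F := F) (inj _ _ (by rw [hF, show ph 0 = 1 from rfl]; simp)) fun m n =>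
    inj _ _ (by rw [hF, ph_mul, ph_mul, map_mul, map_mul, hF, hF]; group)
  exact ⟨F 1, F 2, F 4, fun n => by rw [← e0, hF]⟩

/-- an element of `N(T)` which fixes an involution `s = m t m⁻¹` moves elements inside `V^m` -/
theorem move {m n : G} (hm : m ∈ normalizer (TT Φ : Set G)) (hn : n * (m * t * m⁻¹) = m * t * m⁻¹ * n)
    {x : G} (hx : x ∈ TT Φ) : n * x * n⁻¹ * x ≠ m * t * m⁻¹ := fun e => by
  obtain ⟨ψ, a, b⟩ := h.exists_psi (n := m⁻¹ * n * m) (by
    rw [show m⁻¹ * n * m * t = m⁻¹ * (n * (m * t * m⁻¹)) * m by group, hn]; group)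
  obtain ⟨k, hk, hk'⟩ := (mem_normalizer_iff.mp (inv_mem hm) x).mp hx
  have c : ψ k * k = JK.tau := h.inj (by
    rw [map_mul, a, hk', h.tau, show t = m⁻¹ * (m * t * m⁻¹) * m by group, ← e]; group)
  have d := congrArg Prod.fst c
  rw [Prod.fst_mul, fst_eq b] at d
  exact (show ∀ e : Multiplicative (ZMod 2), e * e ≠ o2 by decide) _ d

theorem cen_eq {n : G} (hn : n * t = t * n) : ∃ k, ∀ l, (Φ k)⁻¹ * n * Φ l = Φ l * ((Φ k)⁻¹ * n) := by
  -- move the image of `ka` back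
  have st : ∀ n : G, n * t = t * n → n * Φ ka = Φ ka * n → n * Φ kb = Φ kb * n →
      ∃ k, ∀ l, (Φ k)⁻¹ * n * Φ l = Φ l * ((Φ k)⁻¹ * n) := fun n hn ha hb => by
    obtain ⟨ψ, a, b⟩ := h.exists_psi hn
    have e1 : ψ ka = ka := h.inj (by rw [a, ha]; group)
    have e2 : ψ kb = kb := h.inj (by rw [a, hb]; group)
    obtain ⟨i, c1, c2⟩ := K_aut (ψ kr) (by rw [← map_pow, show kr ^ 3 = 1 by decide, map_one])
      (by rw [← e2, kb, map_mul, map_mul, map_inv, e1]) (ψ ku)
      (by rw [← map_mul, show ku * ku = 1 by decide, map_one]) (fst_eq b ku)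
      (by rw [← map_mul, ← map_pow, show (kr * ku) ^ 2 = 1 by decide, map_one])
      (by rw [← e1, ← map_mul, ← map_pow, show (ka * ku) ^ 3 = 1 by decide, map_one])
    have := K_gen (ψ.eqLocus (MulAut.conj (ph i)).toMonoidHom)
      (b.trans (by show _ = ph i * _ * (ph i)⁻¹; rw [mem_center_iff.mp tau_central]; group))
      (e1.trans (by show _ = ph i * _ * (ph i)⁻¹; rw [ph_mem]; group)) c1.symm c2.symm
    refine ⟨ph i, fun l => ?_⟩
    have d : ψ l = ph i * l * (ph i)⁻¹ :=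
      (this ▸ mem_top l : l ∈ ψ.eqLocus (MulAut.conj (ph i)).toMonoidHom)
    have := a l
    rw [d, map_mul, map_mul, map_inv] at this
    rw [show (Φ (ph i))⁻¹ * n * Φ l = (Φ (ph i))⁻¹ * (n * Φ l * n⁻¹) * n by group, ← this]; group
  obtain ⟨ψ, a, b⟩ := h.exists_psi hn
  have pi : Function.Injective ψ := fun x y e => h.inj (by
    have := (a x).symm.trans ((congrArg Φ e).trans (a y))
    simpa using this)
  obtain ⟨y, hy⟩ := K_inv (ψ ka) (by rw [← map_mul, show ka * ka = 1 by decide, map_one])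
    (fun e => absurd (pi (e.trans (map_one ψ).symm)) (by decide))
    fun e => absurd (pi (e.trans b.symm)) (by decide)
  rw [fst_eq b] at hy
  have hy : y * ka * y⁻¹ = ψ ka := hy
  have n1 : (Φ y)⁻¹ * n * t = t * ((Φ y)⁻¹ * n) := by
    rw [mul_assoc, hn, ← mul_assoc, ← map_inv, h.comm, mul_assoc]
  have n2 : (Φ y)⁻¹ * n * Φ ka = Φ ka * ((Φ y)⁻¹ * n) := by
    rw [show (Φ y)⁻¹ * n * Φ ka = (Φ y)⁻¹ * (n * Φ ka * n⁻¹) * n by group, ← a, ← hy, map_mul, map_mul,
      map_inv]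
    group
  suffices ∃ k, ∀ l, (Φ k)⁻¹ * ((Φ y)⁻¹ * n) * Φ l = Φ l * ((Φ k)⁻¹ * ((Φ y)⁻¹ * n)) by
    obtain ⟨k, hk⟩ := this
    exact ⟨y * k, fun l => by simpa [mul_assoc] using hk l⟩
  generalize (Φ y)⁻¹ * n = n' at n1 n2
  obtain ⟨ψ, a, b⟩ := h.exists_psi n1
  have e1 : ψ ka = ka := h.inj (by rw [a, n2]; group)
  obtain ⟨i, hi⟩ := ph_surj (ψ kb) (by
    rw [← e1, ← map_mul, ← map_mul, show kb * ka = ka * kb by decide])
  have pi : Function.Injective ψ := fun x y e => h.inj (by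
    have := (a x).symm.trans ((congrArg Φ e).trans (a y))
    simpa using this)
  rcases (show ∀ i, (ph i).1 = kb.1 → ph i = 1 ∨ ph i = ka ∨ ph i = kb ∨ ph i = kb * ka by decide) i
    (hi ▸ fst_eq b kb) with e | e | e | e <;> rw [hi] at e
  · exact absurd (pi (e.trans (map_one ψ).symm)) (by decide)
  · exact absurd (pi (e.trans e1.symm)) (by decide)
  · exact st n' n1 n2 (by rw [← mul_inv_eq_iff_eq_mul, ← a, e])
  · obtain ⟨m, hm, em⟩ := h.exists_norm (n := 2) (by decide)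
    refine absurd ?_ (h.move hm (n := n') (by rw [em]; exact n2) (mem_TT.mpr ⟨4, rfl⟩))
    rw [em, show ph 4 = kb from rfl, ← a, e, ← map_mul]
    exact congrArg Φ (by decide)

end WC

end J1
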